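import Cfsg.Agent.H709.IF.Four
import Cfsg.Agent.H94.IF.KTwo
import Cfsg.Agent.H215.IFM.Eight

/-!
# S5719, `POmega_8^+(q)`, `q` odd: the case of a fundamental involution (helper709)

`eight_plus` : four commuting `SL₂(q)` with the same central involution `z`.
-/

set_option autoImplicit false
set_option linter.unusedSectionVars false

namespace Cfsg.Agent.H709.IF

open MulAction Subgroup Cfsg.Agent.H209.Fxy
open Matrix (SpecialLinearGroup ProjectiveSpecialLinearGroup)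

section ar

theorem ar0 (k : ℕ) : (2 * k + 1) ^ 8 * ((2 * k + 1) ^ 2 + 1) ^ 2 * ((2 * k + 1) ^ 4 + (2 * k + 1) ^ 2 + 1) ≤
    16 * ((2 * k + 1) ^ 12 * (k + 1) ^ 4) := by
  have h1 : (2 * k + 1) ^ 2 + 1 ≤ (2 * k + 1) * (2 * (k + 1)) := by nlinarith
  have h2 : (2 * k + 1) ^ 4 + (2 * k + 1) ^ 2 + 1 ≤ ((2 * k + 1) ^ 2 + 1) ^ 2 := by nlinarith
  have h3 : ((2 * k + 1) ^ 2 + 1) ^ 2 ≤ ((2 * k + 1) * (2 * (k + 1))) ^ 2 := Nat.pow_le_pow_left h1 2
  calc (2 * k + 1) ^ 8 * ((2 * k + 1) ^ 2 + 1) ^ 2 * ((2 * k + 1) ^ 4 + (2 * k + 1) ^ 2 + 1)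
      ≤ (2 * k + 1) ^ 8 * ((2 * k + 1) * (2 * (k + 1))) ^ 2 * ((2 * k + 1) * (2 * (k + 1))) ^ 2 :=
        Nat.mul_le_mul (Nat.mul_le_mul_left _ h3) (h2.trans h3)
    _ = _ := by ring

theorem ar_q (k : ℕ) : (2 * k + 1) ^ 12 ≤ 4096 * (k + 1) ^ 12 := by
  have h1 : (2 * k + 1) ^ 12 ≤ (2 * (k + 1)) ^ 12 := Nat.pow_le_pow_left (by omega) 12
  calc (2 * k + 1) ^ 12 ≤ (2 * (k + 1)) ^ 12 := h1
    _ = _ := by rw [mul_pow]; norm_num

theorem ar3 (k : ℕ) : 4 * ((2 * k + 1) ^ 12 * (k + 1) ^ 4) ≤ ((k + 1) * (2 * k + 2) ^ 3) ^ 5 := by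
  have h1 := Nat.mul_le_mul_right ((k + 1) ^ 4) (ar_q k)
  have h2 : (k + 1) ^ 16 ≤ (k + 1) ^ 20 := Nat.pow_le_pow_right (by omega) (by norm_num)
  have h3 : ((k + 1) * (2 * k + 2) ^ 3) ^ 5 = 32768 * (k + 1) ^ 20 := by ring
  have h4 : 4096 * (k + 1) ^ 12 * (k + 1) ^ 4 = 4096 * (k + 1) ^ 16 := by ring
  omega

theorem ar4 (k : ℕ) : 4 * ((2 * k + 1) ^ 12 * (k + 1) ^ 4) ≤ ((2 * k + 2) ^ 3) ^ 5 * (k + 1) := by
  have h1 := Nat.mul_le_mul_right ((k + 1) ^ 4) (ar_q k)
  have h3 : ((2 * k + 2) ^ 3) ^ 5 * (k + 1) = 32768 * (k + 1) ^ 16 := by ring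
  have h4 : 4096 * (k + 1) ^ 12 * (k + 1) ^ 4 = 4096 * (k + 1) ^ 16 := by ring
  omega

theorem ar2 {k : ℕ} (hk : 2 ≤ k) :
    4 * ((2 * k + 1) ^ 12 * (k + 1) ^ 4) ≤ ((2 * k + 1) * (2 * (k * (k + 1))) * (k + 1)) ^ 5 := by
  have h0 : (2 * k + 1) ^ 7 ≤ 8 * (k ^ 5 * (k + 1) ^ 6) := by
    rcases eq_or_lt_of_le hk with rfl | h
    · norm_num
    · have h1 : (2 * k + 1) ^ 6 ≤ (2 * (k + 1)) ^ 6 := Nat.pow_le_pow_left (by omega) 6
      have h2 : 8 * (2 * k + 1) ≤ k ^ 5 := by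
        have h3 : 3 ^ 4 * k ≤ k ^ 4 * k := Nat.mul_le_mul_right k (Nat.pow_le_pow_left h 4)
        have h4 : k ^ 4 * k = k ^ 5 := by ring
        omega
      calc (2 * k + 1) ^ 7 = (2 * k + 1) ^ 6 * (2 * k + 1) := by ring
        _ ≤ (2 * (k + 1)) ^ 6 * (2 * k + 1) := Nat.mul_le_mul_right _ h1
        _ = 8 * ((8 * (2 * k + 1)) * (k + 1) ^ 6) := by ring
        _ ≤ _ := Nat.mul_le_mul_left _ (Nat.mul_le_mul_right _ h2)
  calc 4 * ((2 * k + 1) ^ 12 * (k + 1) ^ 4) = 4 * ((2 * k + 1) ^ 5 * (k + 1) ^ 4) * (2 * k + 1) ^ 7 := by ring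
    _ ≤ 4 * ((2 * k + 1) ^ 5 * (k + 1) ^ 4) * (8 * (k ^ 5 * (k + 1) ^ 6)) := Nat.mul_le_mul_left _ h0
    _ = _ := by ring

end ar

section k3

variable {F : Type*} [Field F] [Fintype F] {T : Type*} [Group T] [Finite T] {A : Subgroup T}


theorem mk_sq (h2 : (2 : F) ≠ 0) {s : SpecialLinearGroup (Fin 2) F} (h : (QuotientGroup.mk s : ProjectiveSpecialLinearGroup (Fin 2) F) * QuotientGroup.mk s = 1) :
    (s = 1 ∨ s = -1) ∨ s * s = -1 := by
  have h1 : s * s ∈ center (SpecialLinearGroup (Fin 2) F) := (QuotientGroup.eq_one_iff (s * s)).1 h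
  rcases H215.IFM.mem_center2.1 h1 with h3 | h3
  · exact Or.inl (H215.IFM.sq_one h2 h3)
  · exact Or.inr h3

theorem mk_one {s : SpecialLinearGroup (Fin 2) F} (h : (QuotientGroup.mk s : ProjectiveSpecialLinearGroup (Fin 2) F) = 1) : s = 1 ∨ s = -1 :=
  H215.IFM.mem_center2.1 ((QuotientGroup.eq_one_iff s).1 h)

theorem one_mk {s : SpecialLinearGroup (Fin 2) F} (h : s = 1 ∨ s = -1) : (QuotientGroup.mk s : ProjectiveSpecialLinearGroup (Fin 2) F) = 1 :=
  (QuotientGroup.eq_one_iff s).2 (H215.IFM.mem_center2.2 h)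

theorem odd_of {G : Type*} [Group G] [Finite G] {x : G} (h : ∀ n : ℕ, x ^ n * x ^ n = 1 → x ^ n = 1) :
    Odd (orderOf x) := by
  by_contra hev
  rw [Nat.not_odd_iff_even] at hev
  obtain ⟨n, hn⟩ := hev
  have h1 : x ^ n * x ^ n = 1 := by rw [← pow_add, ← hn, pow_orderOf_eq_one]
  have h2 := orderOf_dvd_of_pow_eq_one (h n h1)
  have h3 := orderOf_pos x
  have h4 := Nat.le_of_dvd (by omega) h2
  omega

variable (f : Fin 4 → (SpecialLinearGroup (Fin 2) F →* T)) (hcomm : ∀ i j, i ≠ j → ∀ s t, Commute (f i s) (f j t))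

include hcomm

theorem k3 (h2 : (2 : F) ≠ 0) {z : T} (hz : z ∈ A) (hneg : ∀ i, f i (-1) = z)
    (hsup : ∀ i j, i ≠ j → ∀ s t : SpecialLinearGroup (Fin 2) F, s * s = -1 → t * t = -1 → f i s * f j t ∉ A)
    (hno : ∀ i, i ≠ 0 → ∀ s : SpecialLinearGroup (Fin 2) F, s * s = -1 → f i s ∉ A) :
    (Fintype.card F + 1) ^ 3 ≤ A.relIndex (last3 f hcomm).range := by
  have hc1 : ∀ i (s : SpecialLinearGroup (Fin 2) F), (s = 1 ∨ s = -1) → f i s ∈ A := by
    rintro i s (rfl | rfl)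
    · rw [map_one]
      exact A.one_mem
    · rw [hneg]
      exact hz
  have hcz : ∀ i (s : SpecialLinearGroup (Fin 2) F), (s = 1 ∨ s = -1) → ∀ j t, i ≠ j → f i s * f j t = f j t * f i s := fun i s _ j t hij =>
    (hcomm i j hij s t).eq
  have kill : ∀ a b c : SpecialLinearGroup (Fin 2) F, f 1 a * (f 2 b * f 3 c) ∈ A → ((a = 1 ∨ a = -1) ∨ a * a = -1) →
      ((b = 1 ∨ b = -1) ∨ b * b = -1) → ((c = 1 ∨ c = -1) ∨ c * c = -1) →
      ((a = 1 ∨ a = -1) ∨ (b = 1 ∨ b = -1) ∨ (c = 1 ∨ c = -1)) →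
      (a = 1 ∨ a = -1) ∧ (b = 1 ∨ b = -1) ∧ (c = 1 ∨ c = -1) := by
    intro a b c hA ha hb hc habc
    rcases ha with ha | ha
    · have hA1 : f 2 b * f 3 c ∈ A := (A.mul_mem_cancel_left (hc1 1 a ha)).1 hA
      rcases hb with hb | hb
      · have hA2 : f 3 c ∈ A := (A.mul_mem_cancel_left (hc1 2 b hb)).1 hA1
        rcases hc with hc | hc
        · exact ⟨ha, hb, hc⟩
        · exact absurd hA2 (hno 3 (by decide) c hc)
      · rcases hc with hc | hc
        · exact absurd ((A.mul_mem_cancel_right (hc1 3 c hc)).1 hA1) (hno 2 (by decide) b hb)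
        · exact absurd hA1 (hsup 2 3 (by decide) b c hb hc)
    · rcases hb with hb | hb
      · have e : f 1 a * (f 2 b * f 3 c) = f 2 b * (f 1 a * f 3 c) := by
          rw [← mul_assoc, (hcomm 1 2 (by decide) a b).eq, mul_assoc]
        rw [e] at hA
        have hA1 : f 1 a * f 3 c ∈ A := (A.mul_mem_cancel_left (hc1 2 b hb)).1 hA
        rcases hc with hc | hc
        · exact absurd ((A.mul_mem_cancel_right (hc1 3 c hc)).1 hA1) (hno 1 (by decide) a ha)
        · exact absurd hA1 (hsup 1 3 (by decide) a c ha hc)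
      · rcases hc with hc | hc
        · rw [← mul_assoc] at hA
          exact absurd ((A.mul_mem_cancel_right (hc1 3 c hc)).1 hA) (hsup 1 2 (by decide) a b ha hb)
        · exfalso
          have hne : ∀ x : SpecialLinearGroup (Fin 2) F, (x = 1 ∨ x = -1) → x * x ≠ -1 := by
            intro x hx he
            have h3 : x * x = 1 := by rcases hx with rfl | rfl <;> simp
            exact H215.IFM.neg_one_ne h2 (he.symm.trans h3)
          rcases habc with h3 | h3 | h3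
          · exact hne _ h3 ha
          · exact hne _ h3 hb
          · exact hne _ h3 hc
  let π : (SpecialLinearGroup (Fin 2) F × SpecialLinearGroup (Fin 2) F × SpecialLinearGroup (Fin 2) F) →* (ProjectiveSpecialLinearGroup (Fin 2) F × ProjectiveSpecialLinearGroup (Fin 2) F × ProjectiveSpecialLinearGroup (Fin 2) F) :=
    (QuotientGroup.mk' _).prodMap ((QuotientGroup.mk' _).prodMap (QuotientGroup.mk' _))
  have hπ : Function.Surjective π := by
    rintro ⟨a, b, c⟩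
    induction a using QuotientGroup.induction_on with
    | H a =>
      induction b using QuotientGroup.induction_on with
      | H b =>
        induction c using QuotientGroup.induction_on with
        | H c => exact ⟨(a, b, c), rfl⟩
  set Y0 := A.comap (last3 f hcomm) with hY0
  have hidx : (Y0.map π).index ≤ Y0.index :=
    Nat.le_of_dvd (Nat.pos_of_ne_zero Subgroup.index_ne_zero_of_finite) (Subgroup.index_map_dvd Y0 hπ)
  rw [relIndex_range]
  refine le_trans ?_ hidx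
  -- the involutions
  have hinv : ∀ w ∈ Y0.map π, (w.1 = 1 ∨ w.2.1 = 1 ∨ w.2.2 = 1) → w * w = 1 → w = 1 := by
    rintro _ ⟨⟨a, b, c⟩, hA, rfl⟩ hw hww
    have e1 : (QuotientGroup.mk a : ProjectiveSpecialLinearGroup (Fin 2) F) * QuotientGroup.mk a = 1 := congrArg Prod.fst hww
    have e2 : (QuotientGroup.mk b : ProjectiveSpecialLinearGroup (Fin 2) F) * QuotientGroup.mk b = 1 := congrArg (fun x => x.2.1) hww
    have e3 : (QuotientGroup.mk c : ProjectiveSpecialLinearGroup (Fin 2) F) * QuotientGroup.mk c = 1 := congrArg (fun x => x.2.2) hww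
    obtain ⟨h3, h4, h5⟩ := kill a b c hA (mk_sq h2 e1) (mk_sq h2 e2) (mk_sq h2 e3)
      (hw.imp mk_one (fun h => h.imp mk_one mk_one))
    exact Prod.ext (one_mk h3) (Prod.ext (one_mk h4) (one_mk h5))
  have hodd : ∀ y ∈ Y0.map π, (y.1 = 1 ∨ y.2.1 = 1 ∨ y.2.2 = 1) → Odd (orderOf y) := by
    intro y hy h3
    apply odd_of
    intro n hn
    refine hinv _ ((Y0.map π).pow_mem hy n) ?_ hn
    rcases h3 with h3 | h3 | h3
    · left
      show y.1 ^ n = 1
      rw [h3, one_pow]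
    · right; left
      show y.2.1 ^ n = 1
      rw [h3, one_pow]
    · right; right
      show y.2.2 ^ n = 1
      rw [h3, one_pow]
  have hcard : Nat.card F + 1 ≤ Nat.card (ProjectiveSpecialLinearGroup (Fin 2) F) ∧ (Nat.card F + 1) ^ 3 ≤ Nat.card (ProjectiveSpecialLinearGroup (Fin 2) F) * Nat.card (ProjectiveSpecialLinearGroup (Fin 2) F) := by
    have h3 := H215.IFM.card_psl2 (F := F) h2
    rw [Nat.card_eq_fintype_card]
    have hF2 : 3 ≤ Fintype.card F := by
      have h4 : 1 < Fintype.card F := Fintype.one_lt_card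
      by_contra hcon
      have h5 : Fintype.card F = 2 := by omega
      apply h2
      have h6 := FiniteField.cast_card_eq_zero F
      rw [h5] at h6
      exact_mod_cast h6
    obtain ⟨r, hr⟩ : ∃ r, Fintype.card F = r + 3 := ⟨Fintype.card F - 3, by omega⟩
    have h4 : Fintype.card F ^ 2 - 1 = (r + 2) * (r + 4) := by
      rw [hr]
      have : (r + 3) ^ 2 = (r + 2) * (r + 4) + 1 := by ring
      omega
    rw [h4, hr] at h3
    rw [hr]
    have h5 : 2 * (r + 4) ≤ 2 * Nat.card (ProjectiveSpecialLinearGroup (Fin 2) F) := by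
      rw [h3]
      nlinarith
    refine ⟨by omega, ?_⟩
    have h6 : 4 * (r + 3 + 1) ^ 3 ≤ (2 * Nat.card (ProjectiveSpecialLinearGroup (Fin 2) F)) * (2 * Nat.card (ProjectiveSpecialLinearGroup (Fin 2) F)) := by
      rw [h3]
      have e : (r + 3) * ((r + 2) * (r + 4)) * ((r + 3) * ((r + 2) * (r + 4))) =
          (r + 4) ^ 2 * ((r + 3) * (r + 2)) ^ 2 := by ring
      have e' : 4 * (r + 3 + 1) ^ 3 = (r + 4) ^ 2 * (4 * (r + 4)) := by ring
      rw [e, e']
      refine Nat.mul_le_mul_left _ ?_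
      nlinarith
    nlinarith
  rw [Nat.card_eq_fintype_card] at hcard
  have hO := H94.IF.oddIdx_psl (F := F) h2
  rw [Nat.card_eq_fintype_card] at hO
  rcases H94.IF.kThree hO hO hO hcard.1 hcard.1 hcard.1 (Y := Y0.map π)
      (fun y hy h => hodd y hy (Or.inr (Or.inr h))) (fun y hy h => hodd y hy (Or.inr (Or.inl h)))
      (fun y hy h => hodd y hy (Or.inl h)) with h3 | h3
  · exact h3
  · exact hcard.2.trans h3

end k3

section main

variable {F : Type*} [Field F] [Fintype F] {T : Type*} [Group T] [Finite T] {A : Subgroup T}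

/-- an element of order four -/
theorem exists_four : ∃ s : SpecialLinearGroup (Fin 2) F, s * s = -1 := by
  refine ⟨⟨!![0, 1; -1, 0], by simp [Matrix.det_fin_two]⟩, ?_⟩
  apply Subtype.ext
  show (!![0, 1; -1, 0] : Matrix (Fin 2) (Fin 2) F) * !![0, 1; -1, 0] = -1
  ext i j
  fin_cases i <;> fin_cases j <;> simp [Matrix.mul_apply, Fin.sum_univ_two]

/-- permuting the factors -/
theorem swap_comm (f : Fin 4 → (SpecialLinearGroup (Fin 2) F →* T))
    (hcomm : ∀ i j, i ≠ j → ∀ s t, Commute (f i s) (f j t)) (a : Fin 4) :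
    ∀ i j, i ≠ j → ∀ s t, Commute (f (Equiv.swap 0 a i) s) (f (Equiv.swap 0 a j) t) := fun i j hij s t =>
  hcomm _ _ (fun h => hij ((Equiv.swap 0 a).injective h)) s t

theorem swap_iSup (f : Fin 4 → (SpecialLinearGroup (Fin 2) F →* T)) (a : Fin 4) :
    (⨆ i, (f (Equiv.swap 0 a i)).range) = ⨆ i, (f i).range :=
  (Equiv.swap 0 a).iSup_comp (g := fun i => (f i).range)

theorem last3_le (f : Fin 4 → (SpecialLinearGroup (Fin 2) F →* T))
    (hcomm : ∀ i j, i ≠ j → ∀ s t, Commute (f i s) (f j t)) :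
    A.relIndex (last3 f hcomm).range ≤ A.relIndex (⨆ i, (f i).range) := by
  rw [← range_sup f hcomm]
  exact relIndex_le_of_le_right le_sup_right Subgroup.index_ne_zero_of_finite

/-- `(q + 1)^3` -/
theorem k3' (f : Fin 4 → (SpecialLinearGroup (Fin 2) F →* T))
    (hcomm : ∀ i j, i ≠ j → ∀ s t, Commute (f i s) (f j t)) (h2 : (2 : F) ≠ 0) {z : T} (hz : z ∈ A)
    (hneg : ∀ i, f i (-1) = z)
    (hsup : ∀ i j, i ≠ j → ∀ s t : SpecialLinearGroup (Fin 2) F, s * s = -1 → t * t = -1 → f i s * f j t ∉ A)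
    (a : Fin 4) (hno : ∀ i, i ≠ a → ∀ s : SpecialLinearGroup (Fin 2) F, s * s = -1 → f i s ∉ A) :
    (Fintype.card F + 1) ^ 3 ≤ A.relIndex (last3 (fun i => f (Equiv.swap 0 a i)) (swap_comm f hcomm a)).range := by
  refine k3 _ (swap_comm f hcomm a) h2 hz (fun i => hneg _) (fun i j hij => hsup _ _
    (fun h => hij ((Equiv.swap 0 a).injective h))) ?_
  intro i hi
  apply hno
  intro h
  apply hi
  apply (Equiv.swap 0 a).injective
  rw [h, Equiv.swap_apply_left]

variable {Γ : Subgroup (MulAut T)}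

/-- **The case of a fundamental involution in `POmega_8^+(q)`, `q` odd.** -/
theorem eight_plus [IsSimpleGroup T] (h : IF A Γ) (hna : ∃ a b : T, a * b ≠ b * a) (hodd : Odd (Fintype.card F))
    (f : Fin 4 → (SpecialLinearGroup (Fin 2) F →* T)) (hcomm : ∀ i j, i ≠ j → ∀ s t, Commute (f i s) (f j t))
    {z : T} (hz : z ∈ A) (hz2 : orderOf z = 2) (hneg : ∀ i, f i (-1) = z)
    (hsup : ∀ i j, i ≠ j → ∀ s t : SpecialLinearGroup (Fin 2) F, s * s = -1 → t * t = -1 → f i s * f j t ∉ A)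
    (hcl : ∀ t ∈ A, orderOf t = 2 → ∃ x : T, x * z * x⁻¹ = t)
    (hc : ∀ i, ∀ t ∈ A, orderOf t = 2 → (∀ a, f i a * t = t * f i a) → t = z)
    (hN : 4 * (centralizer ({z} : Set T)).index ≤
      Fintype.card F ^ 8 * (Fintype.card F ^ 2 + 1) ^ 2 * (Fintype.card F ^ 4 + Fintype.card F ^ 2 + 1)) : False := by
  have h2 := H215.IFM.two_ne hodd
  have hK : (⨆ i, (f i).range) ≤ centralizer ({z} : Set T) := by
    refine iSup_le ?_
    rintro i _ ⟨s, rfl⟩
    rw [mem_centralizer_singleton_iff]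
    obtain ⟨j, hj⟩ : ∃ j : Fin 4, i ≠ j := by
      fin_cases i
      · exact ⟨1, by decide⟩
      · exact ⟨0, by decide⟩
      · exact ⟨0, by decide⟩
      · exact ⟨0, by decide⟩
    rw [← hneg j]
    exact (hcomm i j hj s (-1)).eq
  have hcard := H215.IFM.card_invol h hna hz hz2 hK
  set S : Set T := {t : T | t ∈ A ∧ ∃ x : T, x * z * x⁻¹ = t} with hS
  have hS2 : ∀ t ∈ S, orderOf t = 2 := by
    rintro _ ⟨-, x, rfl⟩
    have h1 : x * z * x⁻¹ = MulAut.conj x z := (MulAut.conj_apply x z).symm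
    rw [h1, MulEquiv.orderOf_eq, hz2]
  have hSpos : 0 < S.ncard := (Set.ncard_pos (Set.toFinite _)).2 ⟨z, hz, 1, by simp⟩
  obtain ⟨k, hk⟩ := hodd
  have hk1 : 1 ≤ k := by
    have : 2 ≤ Fintype.card F := Fintype.one_lt_card
    omega
  have hN' : (centralizer ({z} : Set T)).index ≤ 4 * ((2 * k + 1) ^ 12 * (k + 1) ^ 4) := by
    have h3 := ar0 k
    rw [hk] at hN
    omega
  have hlow : ∀ b, b ≤ A.relIndex (⨆ i, (f i).range) → b ^ 5 < (centralizer ({z} : Set T)).index := by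
    intro b hb
    have h3 : b ^ 5 ≤ A.relIndex (⨆ i, (f i).range) ^ 5 * S.ncard :=
      (Nat.pow_le_pow_left hb 5).trans (Nat.le_mul_of_pos_right _ hSpos)
    omega
  obtain ⟨J, hJ⟩ := exists_four (F := F)
  -- the factor with elements of order 4
  have hex : ∃ a : Fin 4, ∀ i, i ≠ a → ∀ s : SpecialLinearGroup (Fin 2) F, s * s = -1 → f i s ∉ A := by
    by_cases h3 : ∃ (a : Fin 4) (s : SpecialLinearGroup (Fin 2) F), s * s = -1 ∧ f a s ∈ A
    · obtain ⟨a, s, hs, hsA⟩ := h3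
      refine ⟨a, fun i hi t ht htA => ?_⟩
      exact hsup a i hi.symm s t hs ht (A.mul_mem hsA htA)
    · push Not at h3
      exact ⟨0, fun i _ s hs => h3 i s hs⟩
  have h3all : (Fintype.card F + 1) ^ 3 ≤ A.relIndex (⨆ i, (f i).range) := by
    obtain ⟨a, ha⟩ := hex
    have h4 := k3' f hcomm h2 hz hneg hsup a ha
    have h5 := last3_le (A := A) (fun i => f (Equiv.swap 0 a i)) (swap_comm f hcomm a)
    rw [swap_iSup] at h5
    exact h4.trans h5
  by_cases hk2 : k = 1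
  · subst hk2
    rw [hk] at h3all hN
    have h4 := hlow _ h3all
    norm_num at h4 hN
    omega
  have hkk : 2 ≤ k := by omega
  have h5 : 5 ≤ Fintype.card F := by omega
  have hodd' : Odd (Fintype.card F) := ⟨k, hk⟩
  have hq := H16.BR.quasi_sl_two (F := F) (by omega)
  have hmin : MinIx (SpecialLinearGroup (Fin 2) F) (k + 1) := by
    intro R hR
    have := H215.IFM.min_sl2 h5 hodd' hR
    omega
  have hnorm : ∀ N : Subgroup (SpecialLinearGroup (Fin 2) F), N.Normal → N = ⊤ ∨ N ≤ center _ :=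
    fun N hN => SignalizersComponents.Components.quasisimple_normal hq N hN
  have hM : (2 * k + 1) * (2 * (k * (k + 1))) ≤ (center (SpecialLinearGroup (Fin 2) F)).index := by
    have h6 := H215.IFM.card_psl2 (F := F) h2
    have h7 : Nat.card (ProjectiveSpecialLinearGroup (Fin 2) F) = (center (SpecialLinearGroup (Fin 2) F)).index := rfl
    have h8 : (2 * k + 1) ^ 2 - 1 = 4 * (k * (k + 1)) := by
      have : (2 * k + 1) ^ 2 = 4 * (k * (k + 1)) + 1 := by ring
      omega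
    rw [h7, hk, h8] at h6
    have h9 : (2 * k + 1) * (4 * (k * (k + 1))) = 2 * ((2 * k + 1) * (2 * (k * (k + 1)))) := by ring
    omega
  have hperf : commutator (SpecialLinearGroup (Fin 2) F) = ⊤ := hq.1.commutator_eq_top
  -- one of the factors is in `A`
  have hone : ∃ a : Fin 4, ∀ s, f a s ∈ A := by
    by_contra hcon
    push Not at hcon
    have hne : ∀ i, A.comap (f i) ≠ ⊤ := by
      intro i hi
      obtain ⟨s, hs⟩ := hcon i
      apply hs
      have : s ∈ A.comap (f i) := by rw [hi]; trivial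
      exact this
    obtain ⟨a, ha⟩ := hex
    have h4 := k3' f hcomm h2 hz hneg hsup a ha
    set f' : Fin 4 → (SpecialLinearGroup (Fin 2) F →* T) := fun i => f (Equiv.swap 0 a i) with hf'
    by_cases h6 : ∀ s : SpecialLinearGroup (Fin 2) F, ∃ x, f' 0 s * last3 f' (swap_comm f hcomm a) x ∈ A
    · have h7 := step A f' (swap_comm f hcomm a) hperf hnorm hM hmin (fun i => hne _) h6
      rw [swap_iSup] at h7
      have h8 := hlow _ h7
      have h9 := ar2 hkk
      omega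
    · push Not at h6
      have h7 := step' A f' (swap_comm f hcomm a) hmin h6
      rw [swap_iSup] at h7
      have h8 := hlow ((k + 1) * (2 * k + 2) ^ 3) (by
        refine le_trans (Nat.mul_le_mul_left _ ?_) h7
        rw [hk] at h4
        exact h4)
      have h9 := ar3 k
      omega
  obtain ⟨a, ha⟩ := hone
  have hSm : S.ncard < k + 1 := by
    by_contra hcon
    push Not at hcon
    have h6 : ((2 * k + 2) ^ 3) ^ 5 * (k + 1) ≤ A.relIndex (⨆ i, (f i).range) ^ 5 * S.ncard := by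
      refine Nat.mul_le_mul (Nat.pow_le_pow_left ?_ 5) hcon
      rw [hk] at h3all
      exact h3all
    have h7 := ar4 k
    omega
  have hconj : ∀ g ∈ A, ∀ t ∈ S, g * t * g⁻¹ ∈ S := by
    rintro g hg _ ⟨ht, x, rfl⟩
    refine ⟨A.mul_mem (A.mul_mem hg ht) (A.inv_mem hg), g * x, ?_⟩
    group
  have h8 := H215.IFM.orbit_triv (f a) hmin S hSm (fun t ht s => hconj _ (ha s) t ht)
  have h9 : centralizer ({z} : Set T) ≤ A := H215.IFM.cent_le h hz hz2 fun t ht ht2 =>
    hc a t ht ht2 fun s => h8 t ⟨ht, hcl t ht ht2⟩ s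
  exact hsup 0 1 (by decide) J J hJ hJ (h9 (hK ((⨆ i, (f i).range).mul_mem
    (le_iSup (fun i => (f i).range) 0 ⟨J, rfl⟩) (le_iSup (fun i => (f i).range) 1 ⟨J, rfl⟩))))

end main

end Cfsg.Agent.H709.IF
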